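import Mathlib
import Cfsg.Prelude.Def_Local

/-! Mason's theorem: a configuration in `L₄(3)`. -/

set_option autoImplicit false
set_option linter.unusedSectionVars false

namespace Cfsg.Agent.Msn

open Subgroup Cfsg

/-- `SL₄(3)` -/
abbrev L43S := Matrix.SpecialLinearGroup (Fin 4) (ZMod 3)

/-- the unipotent matrices -/
def l43m (v : Fin 3 → ZMod 3) : Matrix (Fin 4) (Fin 4) (ZMod 3) :=
  !![1, 0, v 0 + v 2, -v 1; 0, 1, v 1, v 0; 0, 0, 1, 0; 0, 0, 0, 1]

theorem l43m_det (v : Fin 3 → ZMod 3) : (l43m v).det = 1 := by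
  simp [l43m, Matrix.det_succ_column_zero, Fin.sum_univ_succ, Fin.succAbove]

theorem l43m_mul (v w : Fin 3 → ZMod 3) : l43m (v + w) = l43m v * l43m w := by
  ext i j
  fin_cases i <;> fin_cases j <;> simp [l43m, Matrix.mul_apply, Fin.sum_univ_four] <;> ring

/-- the unipotent elements -/
def l43u : Multiplicative (Fin 3 → ZMod 3) →* L43S :=
  MonoidHom.mk' (fun v => ⟨l43m v.toAdd, l43m_det _⟩) fun _ _ => Subtype.ext (l43m_mul _ _)

/-- the inclusion -/
def l43i : Multiplicative (Fin 2 → ZMod 3) →* Multiplicative (Fin 3 → ZMod 3) :=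
  MonoidHom.mk' (fun v => Multiplicative.ofAdd ![v.toAdd 0, v.toAdd 1, 0]) fun _ _ => by
    apply Multiplicative.toAdd.injective
    ext i
    fin_cases i <;> simp

/-- `diag (J, J)` -/
def l43t : L43S := ⟨!![0, -1, 0, 0; 1, 0, 0, 0; 0, 0, 0, -1; 0, 0, 1, 0], by
  simp [Matrix.det_succ_column_zero, Fin.sum_univ_succ, Fin.succAbove]⟩

/-- an element of order five -/
def l43f : L43S := ⟨!![0, 0, -1, 0; 0, 0, 0, -1; 1, 0, 1, -1; 0, 1, 1, 1], by
  simp [Matrix.det_succ_column_zero, Fin.sum_univ_succ, Fin.succAbove]⟩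

theorem l43_tt : (l43t * l43t).1 = -1 := by decide +kernel

theorem l43_f5 : l43f ^ 5 = 1 := Subtype.ext (by decide +kernel)

theorem l43_ft : l43f * l43t = l43t * l43f := Subtype.ext (by decide +kernel)

theorem l43_ut (v : Multiplicative (Fin 2 → ZMod 3)) : l43u (l43i v) * l43t = l43t * l43u (l43i v) := by
  refine Subtype.ext ?_
  change l43m _ * l43t.1 = l43t.1 * l43m _
  ext i j
  fin_cases i <;> fin_cases j <;> simp [l43m, l43t, l43i, Matrix.mul_apply, Fin.sum_univ_four]

theorem l43_aux {G : Type*} [Group G] (φ : L43S →* G)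
    (h1 : ∀ x, φ x = 1 → ∀ i j, i ≠ j → x.1 i j = 0) (h2 : φ (l43t * l43t) = 1) :
    ∃ (t f : G) (D E : Subgroup G), t ≠ 1 ∧ t * t = 1 ∧ orderOf f = 5 ∧ f * t = t * f ∧
      IsElementaryAbelian 3 D ∧ 27 ≤ Nat.card D ∧ E ≤ D ∧ 9 ≤ Nat.card E ∧
      t ∈ centralizer (E : Set G) := by
  have inj : Function.Injective (φ.comp l43u) := (injective_iff_map_eq_one _).2 fun v hv => by
    have a0 : v.toAdd 0 = 0 := h1 _ hv 1 3 (by decide)
    have a1 : v.toAdd 1 = 0 := h1 _ hv 1 2 (by decide)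
    have a2 : v.toAdd 0 + v.toAdd 2 = 0 := h1 _ hv 0 2 (by decide)
    rw [a0, zero_add] at a2
    apply Multiplicative.toAdd.injective
    ext i
    fin_cases i
    exacts [a0, a1, a2]
  have inj' : Function.Injective l43i := (injective_iff_map_eq_one _).2 fun v hv => by
    have h := congrArg Multiplicative.toAdd hv
    apply Multiplicative.toAdd.injective
    ext i
    fin_cases i
    exacts [congrFun h 0, congrFun h 1]
  have : Fact (Nat.Prime 5) := ⟨by norm_num⟩
  refine ⟨φ l43t, φ l43f, (φ.comp l43u).range, ((φ.comp l43u).comp l43i).range,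
    fun h => absurd (h1 _ h 1 0 (by decide)) (by decide), by rw [← map_mul, h2],
    orderOf_eq_prime (by rw [← map_pow, l43_f5, map_one])
      fun h => absurd (h1 _ h 2 0 (by decide)) (by decide),
    by rw [← map_mul, l43_ft, map_mul], ⟨⟨⟨?_⟩⟩, ?_⟩, ?_, ?_, ?_, ?_⟩
  · rintro ⟨_, x, rfl⟩ ⟨_, y, rfl⟩
    exact Subtype.ext (by
      change _ * _ = _ * _
      rw [← map_mul, mul_comm, map_mul])
  · rintro _ ⟨x, rfl⟩
    rw [← map_pow, show x ^ 3 = 1 from by revert x; decide, map_one]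
  · rw [← Nat.card_congr (MonoidHom.ofInjective inj).toEquiv]
    simp
  · rintro _ ⟨x, rfl⟩
    exact ⟨_, rfl⟩
  · rw [← Nat.card_congr (MonoidHom.ofInjective (f := (φ.comp l43u).comp l43i)
      (inj.comp inj')).toEquiv]
    simp
  · rintro _ ⟨x, rfl⟩
    change φ _ * φ _ = φ _ * φ _
    rw [← map_mul, l43_ut, map_mul]

/-- `F ≃+* ZMod 3`; work in `SL₄(ZMod 3)` with `2 × 2` blocks, `J = !![0, -1; 1, 0]` (`J² = -1`, so `F₃[J] = F₉`):
`t = diag(J, J)` (`t² = -1`, an involution of the quotient), `u X = [[1, X], [0, 1]]`; `a = u 1`, `b = u J` commute with `t`,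
`c = u E₁₁`; `a, b, c` commute, have order 3 and are independent modulo the centre `± 1`. `f` is an element of order 5 of
`SL₂(F₉)` written in blocks (e.g. `[[0, -1], [1, τ]]` with `τ² + τ - 1 = 0`, `τ = 1 + J` or `1 - J`); it commutes with `t`.
Take `D`, `E` the images of `{u X}` with `X` in the span of `1, J, E₁₁` resp. `1, J` (ranges of injective homomorphisms from
`Multiplicative (Fin 3 → ZMod 3)`, `Multiplicative (Fin 2 → ZMod 3)`). -/
theorem l43 {G : Type*} [Group G] (F : Type) [Field F] [Fintype F] (hF : Fintype.card F = 3)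
    (e : G ≃* Matrix.ProjectiveSpecialLinearGroup (Fin 4) F) :
    ∃ (t f : G) (D E : Subgroup G), t ≠ 1 ∧ t * t = 1 ∧ orderOf f = 5 ∧ f * t = t * f ∧
      IsElementaryAbelian 3 D ∧ 27 ≤ Nat.card D ∧ E ≤ D ∧ 9 ≤ Nat.card E ∧
      t ∈ centralizer (E : Set G) := by
  have : Fact (Nat.Prime 3) := ⟨by norm_num⟩
  let σ : ZMod 3 →+* F := (ZMod.ringEquivOfPrime F this.out hF).toRingHom
  refine l43_aux ((e.symm.toMonoidHom.comp (QuotientGroup.mk' _)).comp
    (Matrix.SpecialLinearGroup.map σ)) (fun x hx i j hij => ?_) ?_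
  · have h : Matrix.SpecialLinearGroup.map σ x ∈ center _ :=
      (QuotientGroup.eq_one_iff _).1 ((map_eq_one_iff _ e.symm.injective).1 hx)
    obtain ⟨r, -, hr⟩ := Matrix.SpecialLinearGroup.mem_center_iff.1 h
    have := congrFun (congrFun hr i) j
    rw [Matrix.scalar_apply, Matrix.diagonal_apply_ne _ hij] at this
    exact σ.injective (this.symm.trans (map_zero σ).symm)
  · refine (map_eq_one_iff _ e.symm.injective).2 ((QuotientGroup.eq_one_iff _).2 ?_)
    refine Subgroup.mem_center_iff.2 fun g => Subtype.ext ?_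
    have : (Matrix.SpecialLinearGroup.map σ (l43t * l43t)).1 = -1 := by
      change σ.mapMatrix (l43t * l43t).1 = -1
      rw [l43_tt, map_neg, map_one]
    change g.1 * _ = _ * g.1
    rw [this, mul_neg, neg_mul, mul_one, one_mul]

end Cfsg.Agent.Msn
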